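import Cfsg.Agent.H308.CA.Stmts

/-!
# S3852, type A: `InvSt` (CA10, helper481)
-/

set_option autoImplicit false

namespace Cfsg.Agent.H481.CA

open Module Matrix

section field

variable {K V : Type*} [Field K] [AddCommGroup V] [Module K V] [FiniteDimensional K V] {N : V →ₗ[K] V}

theorem ker_eq_range {k : ℕ} (hV : finrank K V = 2 * k) (hN : ∀ v, N (N v) = 0)
    (hk : finrank K (LinearMap.ker N) = k) : LinearMap.ker N = LinearMap.range N := by
  have h1 : LinearMap.range N ≤ LinearMap.ker N := by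
    rintro _ ⟨v, rfl⟩
    exact hN v
  have h2 := LinearMap.finrank_range_add_finrank_ker N
  exact (Submodule.eq_of_le_of_finrank_eq h1 (by omega)).symm

theorem exists_sqrt {k : ℕ} (hk : finrank K (LinearMap.ker N) = k) (hk1 : Odd k) {B : V →ₗ[K] V} {b : K}
    (hb : b ≠ 0) (hB : ∀ v, B (B v) = b • v) (hBN : ∀ v, B (N v) = N (B v)) : ∃ m : K, m * m = b := by
  have hres : ∀ v ∈ LinearMap.ker N, B v ∈ LinearMap.ker N := by
    intro v hv
    rw [LinearMap.mem_ker] at hv ⊢
    rw [← hBN, hv, map_zero]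
  have hf : (B.restrict hres) ∘ₗ (B.restrict hres) = b • (LinearMap.id : LinearMap.ker N →ₗ[K] LinearMap.ker N) := by
    refine LinearMap.ext fun v => Subtype.ext ?_
    exact hB v
  have hdet : LinearMap.det (B.restrict hres) * LinearMap.det (B.restrict hres) = b ^ k := by
    rw [← LinearMap.det_comp, hf, LinearMap.det_smul, LinearMap.det_id, mul_one, hk]
  obtain ⟨j, rfl⟩ := hk1
  refine ⟨LinearMap.det (B.restrict hres) * (b ^ j)⁻¹, ?_⟩
  have hbj : b ^ j ≠ 0 := pow_ne_zero j hb
  rw [mul_mul_mul_comm, hdet]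
  field_simp
  ring

theorem even_rank {k : ℕ} (hV : finrank K V = 2 * k) (hN : ∀ v, N (N v) = 0)
    (hk : finrank K (LinearMap.ker N) = k) {e : V →ₗ[K] V} (he : ∀ v, e (e v) = e v)
    (heN : ∀ v, e (N v) = N (e v)) : ∃ a, finrank K (LinearMap.range e) = 2 * a := by
  have hker := ker_eq_range hV hN hk
  refine ⟨finrank K (LinearMap.range (N ∘ₗ e)), ?_⟩
  have h1 := LinearMap.finrank_range_add_finrank_ker (N.domRestrict (LinearMap.range e))
  have h2 : LinearMap.range (N.domRestrict (LinearMap.range e)) = LinearMap.range (N ∘ₗ e) := by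
    ext w
    constructor
    · rintro ⟨⟨_, u, rfl⟩, rfl⟩
      exact ⟨u, rfl⟩
    · rintro ⟨u, rfl⟩
      exact ⟨⟨e u, u, rfl⟩, rfl⟩
  have h3 : (LinearMap.ker (N.domRestrict (LinearMap.range e))).map (LinearMap.range e).subtype =
      LinearMap.range (N ∘ₗ e) := by
    ext w
    constructor
    · rintro ⟨⟨v, hv⟩, hv0, rfl⟩
      have h4 : v ∈ LinearMap.ker N := hv0
      rw [hker] at h4
      obtain ⟨u, rfl⟩ := h4
      obtain ⟨z, hz⟩ := hv
      refine ⟨u, ?_⟩
      show N (e u) = N u
      rw [← heN, ← hz, he]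
    · rintro ⟨u, rfl⟩
      refine ⟨⟨N (e u), N u, heN u⟩, hN _, rfl⟩
  have h4 : finrank K (LinearMap.ker (N.domRestrict (LinearMap.range e))) = finrank K (LinearMap.range (N ∘ₗ e)) := by
    rw [← h3]
    exact (LinearEquiv.finrank_eq (Submodule.equivMapOfInjective _ (Submodule.injective_subtype _) _))
  rw [h2, h4] at h1
  omega

/-- the ranks of the idempotents -/
theorem rank_ne {k : ℕ} (hV : finrank K V = 2 * k) (hk1 : Odd k) (hN : ∀ v, N (N v) = 0)
    (hk : finrank K (LinearMap.ker N) = k) {e f : V →ₗ[K] V} (he : ∀ v, e (e v) = e v)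
    (hf : ∀ v, f v = v - e v) (heN : ∀ v, e (N v) = N (e v)) :
    finrank K (LinearMap.range e) ≠ finrank K (LinearMap.range f) := by
  intro heq
  obtain ⟨a, ha⟩ := even_rank hV hN hk he heN
  have h1 : LinearMap.ker e = LinearMap.range f := by
    ext v
    rw [LinearMap.mem_ker]
    constructor
    · intro hv
      exact ⟨v, by rw [hf, hv, sub_zero]⟩
    · rintro ⟨u, rfl⟩
      rw [hf, map_sub, he, sub_self]
  have h2 := LinearMap.finrank_range_add_finrank_ker e
  rw [h1, ← heq] at h2
  obtain ⟨j, hj⟩ := hk1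
  omega

end field

section mat

variable {ι : Type} [Fintype ι] [DecidableEq ι]

theorem card_fix {K : Type} [Field K] [Finite K] {e : Matrix ι ι K} (he : e * e = e) :
    Nat.card {v : ι → K // e *ᵥ v = v} = Nat.card K ^ e.rank := by
  have h1 : ∀ v : ι → K, e *ᵥ v = v ↔ v ∈ LinearMap.range e.mulVecLin := by
    intro v
    constructor
    · intro h
      exact ⟨v, h⟩
    · rintro ⟨u, rfl⟩
      show e *ᵥ (e *ᵥ u) = e *ᵥ u
      rw [mulVec_mulVec, he]
  rw [Nat.card_congr (Equiv.subtypeEquivRight h1)]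
  exact Module.natCard_eq_pow_finrank (K := K) (V := LinearMap.range e.mulVecLin)

theorem card_ker {K : Type} [Field K] [Finite K] (N : Matrix ι ι K) :
    Nat.card {v : ι → K // N *ᵥ v = 0} = Nat.card K ^ finrank K (LinearMap.ker N.mulVecLin) := by
  have h1 : ∀ v : ι → K, N *ᵥ v = 0 ↔ v ∈ LinearMap.ker N.mulVecLin := fun v => Iff.rfl
  rw [Nat.card_congr (Equiv.subtypeEquivRight h1)]
  exact Module.natCard_eq_pow_finrank (K := K) (V := LinearMap.ker N.mulVecLin)

/-- matrix form of `rank_ne` -/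
theorem mat_rank_ne {K : Type} [Field K] {k : ℕ} (hι : Fintype.card ι = 2 * k) (hk1 : Odd k) {N : Matrix ι ι K}
    (hN : N * N = 0) (hk : finrank K (LinearMap.ker N.mulVecLin) = k) {e : Matrix ι ι K} (he : e * e = e)
    (heN : e * N = N * e) : e.rank ≠ (1 - e).rank := by
  have h1 := rank_ne (K := K) (V := ι → K) (N := N.mulVecLin) (k := k) (by rw [finrank_fintype_fun_eq_card, hι]) hk1
    (fun v => by
      show N *ᵥ (N *ᵥ v) = 0
      rw [mulVec_mulVec, hN, zero_mulVec]) hk (e := e.mulVecLin) (f := (1 - e).mulVecLin)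
    (fun v => by
      show e *ᵥ (e *ᵥ v) = e *ᵥ v
      rw [mulVec_mulVec, he])
    (fun v => by
      show (1 - e) *ᵥ v = v - e *ᵥ v
      rw [sub_mulVec, one_mulVec])
    (fun v => by
      show e *ᵥ (N *ᵥ v) = N *ᵥ (e *ᵥ v)
      rw [mulVec_mulVec, mulVec_mulVec, heN])
  exact h1

theorem mat_sqrt {K : Type} [Field K] {k : ℕ} (hk1 : Odd k) {N : Matrix ι ι K}
    (hk : finrank K (LinearMap.ker N.mulVecLin) = k) {B : Matrix ι ι K} {b : K} (hb : b ≠ 0)
    (hB : B * B = b • (1 : Matrix ι ι K)) (hBN : B * N = N * B) : ∃ m : K, m * m = b :=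
  exists_sqrt hk hk1 hb (B := B.mulVecLin)
    (fun v => by
      show B *ᵥ (B *ᵥ v) = b • v
      rw [mulVec_mulVec, hB, smul_mulVec, one_mulVec])
    (fun v => by
      show B *ᵥ (N *ᵥ v) = N *ᵥ (B *ᵥ v)
      rw [mulVec_mulVec, mulVec_mulVec, hBN])

end mat

/-! ### the general algebra -/

section alg

variable {ι : Type} [Fintype ι] [DecidableEq ι] {E : Type} [CommRing E]

theorem two_two (h3 : (3 : E) = 0) : (2 : E) * 2 = 1 := by
  linear_combination h3

/-- the idempotent `(1 + n x) / 2` -/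
def ep (n : E) (x : Matrix ι ι E) : Matrix ι ι E := (2 : E) • (1 + n • x)

theorem ep_idem (h3 : (3 : E) = 0) {n l : E} {x : Matrix ι ι E} (hx : x * x = l • (1 : Matrix ι ι E))
    (hn : n * n * l = 1) : ep n x * ep n x = ep n x := by
  have h1 : (1 + n • x) * (1 + n • x) = (2 : E) • (1 + n • x) := by
    have h2 : (n • x) * (n • x) = 1 := by
      rw [smul_mul_smul_comm, hx, smul_smul, hn, one_smul]
    rw [add_mul, one_mul, mul_add, mul_one, h2, two_smul]
    abel
  rw [ep, smul_mul_smul_comm, two_two h3, one_smul, h1]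

theorem idem_sub {e : Matrix ι ι E} (he : e * e = e) : (1 - e) * (1 - e) = 1 - e := by
  rw [mul_sub, mul_one, sub_mul, one_mul, he, sub_self, sub_zero]

theorem ep_neg (h3 : (3 : E) = 0) (n : E) (x : Matrix ι ι E) : (2 : E) • (1 - n • x) = 1 - ep n x := by
  have h1 : (1 : Matrix ι ι E) = ((2 : E) * 2) • (1 : Matrix ι ι E) := by rw [two_two h3, one_smul]
  have h2 : (1 : Matrix ι ι E) - ep n x = ((2 : E) * 2 - 2) • (1 : Matrix ι ι E) - (2 * n) • x := by
    rw [sub_smul, ← h1, ep, smul_add, smul_smul]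
    abel
  rw [h2, smul_sub, smul_smul]
  congr 2
  ring

theorem ep_comm {n : E} {x N : Matrix ι ι E} (h : x * N = N * x) : ep n x * N = N * ep n x := by
  rw [ep, smul_mul_assoc, mul_smul_comm, add_mul, mul_add, one_mul, mul_one, smul_mul_assoc, mul_smul_comm, h]

end alg

/-! ### unitary elements with scalar square -/

section com

open Cfsg.Agent.H308.CA

variable {ι : Type} [Fintype ι] [DecidableEq ι] {E : Type} [CommRing E] [StarRing E]

theorem star_l [Nonempty ι] {x : SU ι E} {l : E} (hx : mt x * mt x = l • (1 : Matrix ι ι E)) : star l * l = 1 := by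
  have h1 : star (mt x * mt x) * (mt x * mt x) = 1 := by
    rw [star_mul, mul_assoc, ← mul_assoc (star (mt x)) (mt x) (mt x), star_mt_mul, one_mul, star_mt_mul]
  rw [hx, star_smul, star_one, smul_mul_smul_comm, one_mul] at h1
  obtain ⟨i⟩ := ‹Nonempty ι›
  have h2 := congrFun (congrFun h1 i) i
  rwa [Matrix.smul_apply, one_apply_eq, smul_eq_mul, mul_one] at h2

theorem star_x {x : SU ι E} {l : E} (hx : mt x * mt x = l • (1 : Matrix ι ι E)) (hl : star l * l = 1) :
    star (mt x) = star l • mt x := by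
  have h1 : mt x = l • star (mt x) := by
    calc mt x = star (mt x) * mt x * mt x := by rw [star_mt_mul, one_mul]
      _ = l • star (mt x) := by rw [mul_assoc, hx, mul_smul_comm, mul_one]
  conv_rhs => rw [h1]
  rw [smul_smul, hl, one_smul]

theorem star_ep (n : E) (x : Matrix ι ι E) : star (ep n x) = (2 : E) • (1 + star n • star x) := by
  rw [ep, star_smul, star_add, star_one, star_smul, star_ofNat]

end com

/-! ### the field case -/

section uni

open Cfsg.Agent.H308.CA

variable {ι : Type} [Fintype ι] [DecidableEq ι] {F : Type} [Field F] [Finite F]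

omit [Field F] in
theorem card_gt [Nontrivial F] : 1 < Nat.card F := Finite.one_lt_card

theorem rank_map {e : Matrix ι ι F} (he : e * e = e) (f : F ≃+* F) : (e.map f).rank = e.rank := by
  have h1 : e.map f * e.map f = e.map f := by
    rw [← Matrix.map_mul, he]
  have h2 : Nat.card {v : ι → F // e.map f *ᵥ v = v} = Nat.card {v : ι → F // e *ᵥ v = v} := by
    refine (Nat.card_congr (Equiv.subtypeEquiv (Equiv.piCongrRight fun _ => f.toEquiv) ?_)).symm
    intro v
    have h3 : e.map f *ᵥ (fun i => f (v i)) = fun i => f ((e *ᵥ v) i) := by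
      funext i
      exact (RingHom.map_mulVec (f : F →+* F) e v i).symm
    constructor
    · intro h
      show e.map f *ᵥ (fun i => f (v i)) = fun i => f (v i)
      rw [h3, h]
    · intro h
      have h4 : e.map f *ᵥ (fun i => f (v i)) = fun i => f (v i) := h
      rw [h3] at h4
      funext i
      exact f.injective (congrFun h4 i)
  rw [card_fix h1, card_fix he] at h2
  exact Nat.pow_right_injective card_gt h2

variable [StarRing F]

theorem rk_eq {e : Matrix ι ι F} (he : e * e = e) : rk e = e.rank := by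
  unfold rk
  rw [card_fix he, Nat.log_pow card_gt]

theorem rank_star {e : Matrix ι ι F} (he : e * e = e) : (star e).rank = e.rank := by
  have h1 : star e = (e.map (starRingAut : RingAut F))ᵀ := rfl
  rw [h1, rank_transpose, rank_map he]

theorem inv_uni : InvSt F := by
  intro ι _ _ y hy h3 x l hx hxy
  obtain ⟨-, hN, k, hk1, hι, hk⟩ := hy
  have h30 : (3 : F) = 0 := by
    have := CharP.cast_eq_zero F 3
    exact_mod_cast this
  have hne : Nonempty ι := by
    obtain ⟨j, rfl⟩ := hk1
    exact Fintype.card_pos_iff.1 (by omega)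
  rw [pow_two] at hx hN
  have hl := star_l hx
  have hl0 : l ≠ 0 := by
    rintro rfl
    rw [mul_zero] at hl
    exact zero_ne_one hl
  have hk' : finrank F (LinearMap.ker (mt y - 1).mulVecLin) = k := by
    rw [card_ker] at hk
    exact Nat.pow_right_injective card_gt hk
  have hxy' : mt x * mt y = mt y * mt x := by
    rw [← map_mul, ← map_mul, hxy]
  have hxN : mt x * (mt y - 1) = (mt y - 1) * mt x := by
    rw [mul_sub, sub_mul, hxy', mul_one, one_mul]
  obtain ⟨m, hm⟩ := mat_sqrt hk1 hk' hl0 hx hxN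
  have hnu : (star m * m) * (star m * m) = 1 := by
    rw [mul_mul_mul_comm, ← star_mul, hm, hl]
  rcases mul_self_eq_one_iff.1 hnu with h1 | h1
  · refine ⟨m, h1, by rw [pow_two, hm], ?_⟩
    have hn : star m * star m * l = 1 := by
      rw [← hm, mul_mul_mul_comm, h1, one_mul]
    have he := ep_idem h30 hx hn
    have hf := idem_sub he
    rw [ep_neg h30]
    change rk (ep (star m) (mt x)) ≠ _
    rw [rk_eq he, rk_eq hf]
    exact mat_rank_ne hι hk1 hN hk' he (ep_comm hxN)
  · exfalso
    have hn : (-star m) * (-star m) * l = 1 := by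
      rw [← hm, mul_mul_mul_comm, neg_mul, h1, neg_neg, one_mul]
    have he := ep_idem h30 hx hn
    have hstar : star (ep (-star m) (mt x)) = 1 - ep (-star m) (mt x) := by
      rw [star_ep, star_x hx hl, smul_smul, ← ep_neg h30, star_neg, star_star]
      have h2 : -m * star l = - -star m := by
        rw [← hm, star_mul, neg_neg]
        linear_combination (-star m) * h1
      rw [h2, neg_smul, sub_eq_add_neg]
    have h2 := mat_rank_ne hι hk1 hN hk' he (ep_comm hxN)
    rw [← hstar, rank_star he] at h2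
    exact h2 rfl

end uni

/-! ### the linear case -/

section lin

open Cfsg.Agent.H308.CA

variable {ι : Type} [Fintype ι] [DecidableEq ι] {F : Type} [Field F]

/-- first component -/
def p1 : Ex F →+* F := RingHom.fst F F

/-- second component -/
def p2 : Ex F →+* F := RingHom.snd F F

theorem p2_star (a : Ex F) : p2 (star a) = p1 a := rfl

theorem p1_star (a : Ex F) : p1 (star a) = p2 a := rfl

theorem ex_ext {a b : Ex F} (h1 : p1 a = p1 b) (h2 : p2 a = p2 b) : a = b := Prod.ext h1 h2

theorem card_ex : Nat.card (Ex F) = Nat.card F ^ 2 := by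
  rw [pow_two]
  exact Nat.card_prod F F

theorem card_eq (M M' : Matrix ι ι (Ex F)) : Nat.card {v : ι → Ex F // M *ᵥ v = M' *ᵥ v} =
    Nat.card {v : ι → F // M.map p1 *ᵥ v = M'.map p1 *ᵥ v} * Nat.card {v : ι → F // M.map p2 *ᵥ v = M'.map p2 *ᵥ v} := by
  rw [← Nat.card_prod]
  have key : ∀ (f : Ex F →+* F) (A : Matrix ι ι (Ex F)) (v : ι → Ex F), (A.map f) *ᵥ (fun i => f (v i)) =
      fun i => f ((A *ᵥ v) i) := fun f A v => funext fun i => (RingHom.map_mulVec f A v i).symm
  refine Nat.card_congr ⟨fun v => (⟨fun i => p1 (v.1 i), ?_⟩, ⟨fun i => p2 (v.1 i), ?_⟩),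
    fun v => ⟨fun i => ((v.1.1 i, v.2.1 i) : F × F), ?_⟩, ?_, ?_⟩
  · rw [key, key, v.2]
  · rw [key, key, v.2]
  · funext i
    have h1 := congrFun (key p1 M (fun i => ((v.1.1 i, v.2.1 i) : F × F))) i
    have h2 := congrFun (key p1 M' (fun i => ((v.1.1 i, v.2.1 i) : F × F))) i
    have h3 := congrFun (key p2 M (fun i => ((v.1.1 i, v.2.1 i) : F × F))) i
    have h4 := congrFun (key p2 M' (fun i => ((v.1.1 i, v.2.1 i) : F × F))) i
    refine ex_ext ?_ ?_
    · rw [← h1, ← h2]
      exact congrFun v.1.2 i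
    · rw [← h3, ← h4]
      exact congrFun v.2.2 i
  · intro v
    rfl
  · intro v
    rfl

theorem card_fix_ex [Finite F] {e : Matrix ι ι (Ex F)} (he : e * e = e) (hs : star e = e) :
    rk e = (e.map p1).rank := by
  have h1 : e.map p1 * e.map p1 = e.map p1 := by
    rw [← Matrix.map_mul, he]
  have h2 : e.map p2 * e.map p2 = e.map p2 := by
    rw [← Matrix.map_mul, he]
  have h3 : e.map p2 = (e.map p1)ᵀ := by
    ext i j
    show p2 (e i j) = p1 (e j i)
    conv_lhs => rw [← hs]
    rfl
  have h4 := card_eq e 1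
  have h5 : (1 : Matrix ι ι (Ex F)).map p1 = 1 := Matrix.map_one _ (map_zero _) (map_one _)
  have h6 : (1 : Matrix ι ι (Ex F)).map p2 = 1 := Matrix.map_one _ (map_zero _) (map_one _)
  rw [h5, h6] at h4
  simp only [one_mulVec] at h4
  rw [card_fix h1, card_fix h2, h3, rank_transpose, ← pow_add, ← two_mul, pow_mul, ← card_ex] at h4
  unfold rk
  rw [h4, Nat.log_pow]
  exact card_gt

theorem ge_k {k : ℕ} (hι : Fintype.card ι = 2 * k) {N : Matrix ι ι F} (hN : N * N = 0) :
    k ≤ finrank F (LinearMap.ker N.mulVecLin) := by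
  have h1 := LinearMap.finrank_range_add_finrank_ker N.mulVecLin
  rw [finrank_fintype_fun_eq_card, hι] at h1
  have h2 : LinearMap.range N.mulVecLin ≤ LinearMap.ker N.mulVecLin := by
    rintro _ ⟨v, rfl⟩
    show N *ᵥ (N *ᵥ v) = 0
    rw [mulVec_mulVec, hN, zero_mulVec]
  have h3 := Submodule.finrank_mono h2
  omega

theorem inv_lin [Finite F] : InvSt (Ex F) := by
  intro ι _ _ y hy h3 x l hx hxy
  obtain ⟨-, hN, k, hk1, hι, hk⟩ := hy
  have h30 : (3 : Ex F) = 0 := by
    have := CharP.cast_eq_zero (Ex F) 3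
    exact_mod_cast this
  have hne : Nonempty ι := by
    obtain ⟨j, rfl⟩ := hk1
    exact Fintype.card_pos_iff.1 (by omega)
  rw [pow_two] at hx hN
  have hl := star_l hx
  have hl1 : p2 l * p1 l = 1 := congrArg p1 hl
  have hl0 : p1 l ≠ 0 := right_ne_zero_of_mul_eq_one hl1
  have hxy' : mt x * mt y = mt y * mt x := by
    rw [← map_mul, ← map_mul, hxy]
  have hxN : mt x * (mt y - 1) = (mt y - 1) * mt x := by
    rw [mul_sub, sub_mul, hxy', mul_one, one_mul]
  have hN1 : (mt y - 1).map p1 * (mt y - 1).map p1 = 0 := by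
    rw [← Matrix.map_mul, hN]
    exact Matrix.map_zero _ (map_zero _)
  have hN2 : (mt y - 1).map p2 * (mt y - 1).map p2 = 0 := by
    rw [← Matrix.map_mul, hN]
    exact Matrix.map_zero _ (map_zero _)
  have hk' : finrank F (LinearMap.ker ((mt y - 1).map p1).mulVecLin) = k := by
    have h4 := card_eq (mt y - 1) 0
    have h5 : (0 : Matrix ι ι (Ex F)).map p1 = 0 := Matrix.map_zero _ (map_zero _)
    have h6 : (0 : Matrix ι ι (Ex F)).map p2 = 0 := Matrix.map_zero _ (map_zero _)
    rw [h5, h6] at h4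
    simp only [zero_mulVec] at h4
    rw [hk, card_ker, card_ker, ← pow_add, card_ex, ← pow_mul] at h4
    have h7 := Nat.pow_right_injective (card_gt (F := F)) h4
    have h8 := ge_k hι hN1
    have h9 := ge_k hι hN2
    omega
  have hx1 : (mt x).map p1 * (mt x).map p1 = p1 l • (1 : Matrix ι ι F) := by
    rw [← Matrix.map_mul, hx]
    ext i j
    show p1 (l * (1 : Matrix ι ι (Ex F)) i j) = p1 l * (1 : Matrix ι ι F) i j
    rw [map_mul, one_apply, one_apply]
    split_ifs <;> simp
  have hxN1 : (mt x).map p1 * (mt y - 1).map p1 = (mt y - 1).map p1 * (mt x).map p1 := by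
    rw [← Matrix.map_mul, ← Matrix.map_mul, hxN]
  obtain ⟨m1, hm1⟩ := mat_sqrt hk1 hk' hl0 hx1 hxN1
  have hm0 : m1 ≠ 0 := by
    rintro rfl
    rw [mul_zero] at hm1
    exact hl0 hm1.symm
  let m : Ex F := ((m1, m1⁻¹) : F × F)
  have hp1 : p1 m = m1 := rfl
  have hp2 : p2 m = m1⁻¹ := rfl
  have hm : m * m = l := by
    refine ex_ext ?_ ?_
    · rw [map_mul, hp1, hm1]
    · rw [map_mul, hp2, ← mul_inv, hm1]
      exact (eq_inv_of_mul_eq_one_left hl1).symm
  have h1 : star m * m = 1 := by
    refine ex_ext ?_ ?_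
    · rw [map_mul, p1_star, hp1, hp2, map_one, inv_mul_cancel₀ hm0]
    · rw [map_mul, p2_star, hp1, hp2, map_one, mul_inv_cancel₀ hm0]
  refine ⟨m, h1, by rw [pow_two, hm], ?_⟩
  have hn : star m * star m * l = 1 := by
    rw [← hm, mul_mul_mul_comm, h1, one_mul]
  have he := ep_idem h30 hx hn
  have hf := idem_sub he
  have hstar : star (ep (star m) (mt x)) = ep (star m) (mt x) := by
    rw [star_ep, star_x hx hl, smul_smul, star_star]
    have h2 : m * star l = star m := by
      rw [← hm, star_mul]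
      linear_combination (star m) * h1
    rw [h2, ep]
  have hstar' : star (1 - ep (star m) (mt x)) = 1 - ep (star m) (mt x) := by
    rw [star_sub, star_one, hstar]
  rw [ep_neg h30]
  change rk (ep (star m) (mt x)) ≠ _
  rw [card_fix_ex he hstar, card_fix_ex hf hstar']
  have h5 : (1 - ep (star m) (mt x)).map p1 = 1 - (ep (star m) (mt x)).map p1 := by
    rw [Matrix.map_sub, Matrix.map_one]
    · exact map_zero _
    · exact map_one _
    · exact map_sub _
  rw [h5]
  refine mat_rank_ne hι hk1 hN1 hk' ?_ ?_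
  · rw [← Matrix.map_mul, he]
  · rw [← Matrix.map_mul, ← Matrix.map_mul, ep_comm hxN]

end lin

open Cfsg.Agent.H308.CA in
/-- (INV), CA10 -/
theorem inv_st {E : Type} [CommRing E] [StarRing E] (h : Gd E) : InvSt E := by
  cases h with
  | lin F i _ => exact inv_lin
  | uni F i s _ hs => exact inv_uni

end Cfsg.Agent.H481.CA
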